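import Cfsg.Agent.H882.Del.M11V

/-!
# Representations of `M₁₂` of dimension `11`, characteristic `≠ 2, 3` (helper882)

One of the two classes of subgroups `M₁₁` fixes a nonzero vector.
-/

set_option autoImplicit false
set_option linter.unusedSectionVars false

namespace Cfsg.Agent.H882.M12V

open Cfsg Module Cfsg.Agent.SporadicA.GolayBase Cfsg.Agent.SporadicA.GolayPerm Cfsg.Agent.H882.Tab
open Cfsg.Agent.H882.Grp Cfsg.Agent.H882.Dim Cfsg.Agent.H882.Del Cfsg.Agent.H637.JW Cfsg.Agent.H882.M11V
open scoped Pointwise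

/-- the inclusion -/
def inc : Spor.M11 →* Spor.M12 := Subgroup.inclusion inf_le_left

theorem inc_val (g : Spor.M11) : ((inc g : Spor.M12) : Equiv.Perm GolayPt) = g := rfl

theorem tt : projInv * projInv = 1 := IsT.eq (iT.mul iT) isT_one (by decide +kernel)

theorem tinv : (projInv : Equiv.Perm GolayPt)⁻¹ = projInv := inv_eq_of_mul_eq_one_left tt

theorem tw_mem {g : Equiv.Perm GolayPt} (hg : g ∈ Spor.M12) : projInv * g * projInv ∈ Spor.M12 := by
  have ht : projInv ∈ M24 := Cfsg.Agent.S0372.result
  refine ⟨mul_mem (mul_mem ht hg.1) ht, ?_⟩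
  have h1 : ∀ p : GolayPt, projInv p ∈ Spor.squareDodecad ↔ ¬ p ∈ Spor.squareDodecad := by
    rw [squareDodecad_eq]
    simp only [mem_fin]
    decide +kernel
  have h2 : ∀ p : GolayPt, g p ∈ Spor.squareDodecad ↔ p ∈ Spor.squareDodecad := by
    intro p
    have h3 : g • Spor.squareDodecad = Spor.squareDodecad := hg.2
    have h4 := Finset.smul_mem_smul_finset_iff (s := Spor.squareDodecad) (b := p) g
    rw [h3] at h4
    exact h4
  change (projInv * g * projInv) ∈ MulAction.stabilizer (Equiv.Perm GolayPt) Spor.squareDodecad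
  rw [MulAction.mem_stabilizer_finset']
  intro p hp
  change projInv (g (projInv p)) ∈ _
  rw [h1, h2, h1, not_not]
  exact hp

/-- conjugation by `projInv` -/
def tw : Spor.M12 →* Spor.M12 where
  toFun g := ⟨projInv * g * projInv, tw_mem g.2⟩
  map_one' := Subtype.ext (by
    change projInv * 1 * projInv = 1
    rw [mul_one, tt])
  map_mul' g h := Subtype.ext (by
    change projInv * (g * h : Equiv.Perm GolayPt) * projInv = projInv * g * projInv * (projInv * h * projInv)
    rw [mul_assoc (projInv * (g : Equiv.Perm GolayPt)) projInv, ← mul_assoc projInv (projInv * (h : Equiv.Perm GolayPt)),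
      ← mul_assoc projInv projInv, tt, one_mul]
    group)

theorem tw_val (g : Spor.M12) : ((tw g : Spor.M12) : Equiv.Perm GolayPt) = projInv * g * projInv := rfl

theorem tw_tw (g : Spor.M12) : tw (tw g) = g := by
  apply Subtype.ext
  rw [tw_val, tw_val]
  calc projInv * (projInv * (g : Equiv.Perm GolayPt) * projInv) * projInv
      = projInv * projInv * g * (projInv * projInv) := by group
    _ = g := by rw [tt, one_mul, mul_one]

/-- `L0` is normalised by `projInv`. -/
theorem tw_L0 {l : Spor.M11} (hl : l ∈ L0) : ∃ l' ∈ L0, tw (inc l) = inc l' := by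
  have h0 : projInv none = some 0 := rfl
  have h1 : projInv (some 0) = none := rfl
  have e0 : (l : Equiv.Perm GolayPt) none = none := hl
  have e1 : (l : Equiv.Perm GolayPt) (some 0) = some 0 := l.2.2
  have m1 : (projInv * (l : Equiv.Perm GolayPt) * projInv) ∈ Spor.M11 := by
    refine ⟨tw_mem l.2.1, ?_⟩
    change projInv ((l : Equiv.Perm GolayPt) (projInv (some 0))) = some 0
    rw [h1, e0, h0]
  refine ⟨⟨_, m1⟩, ?_, rfl⟩
  change projInv ((l : Equiv.Perm GolayPt) (projInv none)) = none
  rw [h0, e1, h1]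

variable {K : Type*} [Field K] {V : Type*} [AddCommGroup V] [Module K V] [FiniteDimensional K V]

/-- trace of a rank one operator -/
theorem trace_smul {f : Module.End K V} {w : V} (hf : ∀ v, ∃ c : K, f v = c • w) :
    LinearMap.trace K V f • w = f w := by
  by_cases hw : w = 0
  · rw [hw, smul_zero, map_zero]
  obtain ⟨g, hg⟩ : ∃ g : Module.Dual K V, g w ≠ 0 := by
    by_contra hcon
    push Not at hcon
    exact hw ((Module.forall_dual_apply_eq_zero_iff K w).1 hcon)
  have h1 : f = ((g w)⁻¹ • (g ∘ₗ f)).smulRight w := by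
    refine LinearMap.ext fun v => ?_
    obtain ⟨c, hc⟩ := hf v
    rw [LinearMap.smulRight_apply, LinearMap.smul_apply, LinearMap.comp_apply, hc, map_smul, smul_eq_mul, smul_eq_mul,
      mul_comm c, ← mul_assoc, inv_mul_cancel₀ hg, one_mul]
  obtain ⟨c, hc⟩ := hf w
  conv_lhs => rw [h1]
  rw [LinearMap.trace_smulRight, LinearMap.smul_apply, LinearMap.comp_apply, hc, map_smul, smul_eq_mul, smul_eq_mul,
    mul_comm c, ← mul_assoc, inv_mul_cancel₀ hg, one_mul]

/-- The orbit of length `8` of `S`. -/
def o8 : Finset Pt := Finset.univ.filter fun p => (3836960 : ℕ).testBit (idx p) = true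

theorem orbits : ∀ p q : Pt, ((3836960 : ℕ).testBit (idx p) = (3836960 : ℕ).testBit (idx q)) →
    ∃ i : Fin 8, (papp tS)^[(i : ℕ)] (idx p) = idx q := by
  decide +kernel

theorem orb_inv : ∀ p : GolayPt, (3836960 : ℕ).testBit (papp tS (idx p)) = (3836960 : ℕ).testBit (idx p) := by
  decide +kernel

theorem exists_in : ∃ p : Pt, (3836960 : ℕ).testBit (idx p) = true := by decide +kernel

theorem exists_out : ∃ p : Pt, (3836960 : ℕ).testBit (idx p) = false := by decide +kernel

section

variable {σ : Spor.M11 →* Module.End K V} {v0 : V}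

theorem act_pow_idx {g : Spor.M11} {P : ℕ} (hg : IsT g P) (i : ℕ) (p : Pt) :
    idx ((act g)^[i] p : Pt) = (papp P)^[i] (idx p) := by
  induction i with
  | zero => rfl
  | succ i ih =>
    rw [Function.iterate_succ_apply', Function.iterate_succ_apply', ← ih, ← hg]
    rfl

/-- The fixed space of `S` is one-dimensional. -/
theorem fix_S (h2 : (2 : K) ≠ 0) (S' : Sys K (ob σ v0)) (hfix : ∀ k ∈ L0, σ k v0 = v0) :
    (∑ p ∈ o8, ob σ v0 p ≠ 0) ∧ (σ S (∑ p ∈ o8, ob σ v0 p) = ∑ p ∈ o8, ob σ v0 p) ∧
      ∀ w, σ S w = w → ∃ c : K, w = c • ∑ p ∈ o8, ob σ v0 p := by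
  classical
  have hmem : ∀ p : Pt, p ∈ o8 ↔ (3836960 : ℕ).testBit (idx p) = true := fun p => by
    rw [o8, Finset.mem_filter]; simp
  have hactmem : ∀ p : Pt, act S p ∈ o8 ↔ p ∈ o8 := by
    intro p
    rw [hmem, hmem, ← orb_inv p, ← iS]
    rfl
  refine ⟨?_, ?_, ?_⟩
  · intro h0
    obtain ⟨p, hp⟩ := exists_in
    obtain ⟨q, hq⟩ := exists_out
    have h1 : ∑ p, (if p ∈ o8 then (1 : K) else 0) • ob σ v0 p = 0 := by
      rw [← h0]
      simp only [ite_smul, one_smul, zero_smul]
      rw [Finset.sum_ite_mem, Finset.univ_inter]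
    have h3 := S'.rel h1 p q
    rw [if_pos ((hmem p).2 hp), if_neg (fun h => by rw [hmem, hq] at h; simp at h)] at h3
    exact one_ne_zero h3
  · rw [map_sum]
    rw [Finset.sum_congr rfl fun p _ => ob_smul hfix S p]
    refine Finset.sum_bij' (fun p _ => act S p) (fun p _ => (act S).symm p) ?_ ?_ ?_ ?_ ?_
    · intro p hp
      exact (hactmem p).2 hp
    · intro p hp
      rw [← hactmem, Equiv.apply_symm_apply]
      exact hp
    · intro p _
      exact Equiv.symm_apply_apply _ _
    · intro p _
      exact Equiv.apply_symm_apply _ _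
    · intro p _
      rfl
  · intro w hw
    obtain ⟨c, hc⟩ : ∃ c : Pt → K, ∑ i, c i • ob σ v0 i = w := by
      have h1 : w ∈ Submodule.span K (Set.range (ob σ v0)) := by rw [S'.span]; trivial
      rw [← Fintype.range_linearCombination K] at h1
      obtain ⟨c, hc⟩ := h1
      exact ⟨c, hc⟩
    have h1 : ∑ i, (c i - c (act S i)) • ob σ v0 (act S i) = 0 := by
      simp only [sub_smul, Finset.sum_sub_distrib]
      rw [Equiv.sum_comp (act S) (fun i => c i • ob σ v0 i), hc, sub_eq_zero]
      conv_rhs => rw [← hw, ← hc, map_sum]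
      exact Finset.sum_congr rfl fun i _ => by rw [map_smul, ob_smul hfix]
    have h3 : ∑ i, (c ((act S).symm i) - c i) • ob σ v0 i = 0 := by
      rw [← h1, ← Equiv.sum_comp (act S)]
      exact Finset.sum_congr rfl fun i _ => by rw [Equiv.symm_apply_apply]
    obtain ⟨p0, hp0⟩ := exists_in
    obtain ⟨q0, hq0⟩ := exists_out
    set d := c ((act S).symm p0) - c p0 with hd
    have h4 : ∀ i, c (act S i) = c i - d := by
      intro i
      have := S'.rel h3 (act S i) p0
      rw [Equiv.symm_apply_apply, ← hd] at this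
      rw [← this]
      ring
    have h5 : ∀ (n : ℕ) (i : Pt), c ((act S)^[n] i) = c i - n * d := by
      intro n
      induction n with
      | zero => intro i; simp
      | succ n ih =>
        intro i
        rw [Function.iterate_succ_apply', h4, ih]
        push_cast
        ring
    have h8 : (act S)^[8] p0 = p0 := by
      apply Subtype.ext
      apply idx_injective
      rw [act_pow_idx iS]
      have : ∀ i : Fin 24, (papp tS)^[8] (i : ℕ) = i := by decide +kernel
      exact this ⟨idx p0, idx_lt _⟩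
    have h9 := h5 8 p0
    rw [h8] at h9
    have hd0 : d = 0 := by
      have h10 : (2 : K) * (2 * (2 * d)) = 0 := by
        have : (2 : K) * (2 * (2 * d)) = (8 : ℕ) * d := by push_cast; ring
        rw [this]
        linear_combination h9
      exact ((mul_eq_zero.1 ((mul_eq_zero.1 ((mul_eq_zero.1 h10).resolve_left h2)).resolve_left h2)).resolve_left h2)
    have h10 : ∀ p q : Pt, ((3836960 : ℕ).testBit (idx p) = (3836960 : ℕ).testBit (idx q)) → c p = c q := by
      intro p q hpq
      obtain ⟨i, hi⟩ := orbits p q hpq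
      have : (act S)^[(i : ℕ)] p = q := by
        apply Subtype.ext
        apply idx_injective
        rw [act_pow_idx iS, hi]
      rw [← this, h5, hd0, mul_zero, sub_zero]
    refine ⟨c p0 - c q0, ?_⟩
    have h11 : w = ∑ i, (c i - c q0) • ob σ v0 i := by
      simp only [sub_smul, Finset.sum_sub_distrib]
      rw [hc, ← Finset.smul_sum, S'.sum, smul_zero, sub_zero]
    rw [h11, Finset.smul_sum, ← Finset.sum_subset (Finset.subset_univ o8)]
    · refine Finset.sum_congr rfl fun p hp => ?_
      rw [h10 p p0 (by rw [(hmem p).1 hp, hp0])]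
    · intro p _ hp
      rw [h10 p q0 (by rw [hq0]; rw [hmem] at hp; simpa using hp), sub_self, zero_smul]

end

section main

theorem r_SJ : inc S * J = J * (inc S * inc S * (inc S * inc S) * inc S) :=
  eq12 (m12 iS iJ) (m12 iJ (m12 (m12 (m12 iS iS) (m12 iS iS)) iS)) (by decide +kernel)

theorem r_conj : inc S * J = J * (inc S * inc S * (inc S * inc S)) * inc S :=
  eq12 (m12 iS iJ) (m12 (m12 iJ (m12 (m12 iS iS) (m12 iS iS))) iS) (by decide +kernel)

theorem r_K3 : K3 * inc S = J * inc S * K3 := eq12 (m12 iK3 iS) (m12 (m12 iJ iS) iK3) (by decide +kernel)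

theorem r_K4 : K4 * inc S = J * (inc S * inc S * inc S) * K4 :=
  eq12 (m12 iK4 iS) (m12 (m12 iJ (m12 (m12 iS iS) iS)) iK4) (by decide +kernel)

theorem r_K5 : K5 * inc A = J * (inc S * inc S) * K5 :=
  eq12 (m12 iK5 iA) (m12 (m12 iJ (m12 iS iS)) iK5) (by decide +kernel)

theorem r_K6 : K6 * tw (inc (S * S)) = J * K6 := by
  have h : IsT (tw (inc (S * S)) : Spor.M12) (pcomp (pcomp tT (pcomp tS tS)) tT) := (iT.mul (iS.mul iS)).mul iT
  exact eq12 (m12 iK6 h) (m12 iJ iK6) (by decide +kernel)

theorem trace_conj {G : Type*} [Group G] {σ : G →* Module.End K V} {g h k : G} (h1 : k * g = h * k) :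
    LinearMap.trace K V (σ h) = LinearMap.trace K V (σ g) := by
  have h2 : h = k * g * k⁻¹ := by rw [h1, mul_inv_cancel_right]
  rw [h2, map_mul, LinearMap.trace_mul_comm, ← map_mul, ← mul_assoc, inv_mul_cancel, one_mul]

/-- **Fixed vectors in dimension `11`.** -/
theorem m12_fixed (h2 : (2 : K) ≠ 0) (h3 : (3 : K) ≠ 0) (hV : finrank K V = 11) {σ : Spor.M12 →* Module.End K V}
    (hσ : ∃ g, σ g ≠ 1) : ∃ v0 : V, v0 ≠ 0 ∧
      ((∀ g : Spor.M11, σ (inc g) v0 = v0) ∨ ∀ g : Spor.M11, σ (tw (inc g)) v0 = v0) := by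
  have hs := simple12
  have hX1 : inc X ≠ 1 := fun h => X_ne_one (Subtype.ext (congrArg (fun g : Spor.M12 => (g : Equiv.Perm GolayPt)) h))
  have hne : σ (inc X) ≠ 1 := by
    intro h
    obtain ⟨g, hg⟩ := hσ
    exact hg (eq_one_of_eq_one hX1 h g)
  let σ1 : Spor.M11 →* Module.End K V := σ.comp inc
  let σ2 : Spor.M11 →* Module.End K V := (σ.comp tw).comp inc
  have e1 : ∀ g, σ1 g = σ (inc g) := fun _ => rfl
  have e2 : ∀ g, σ2 g = σ (tw (inc g)) := fun _ => rfl
  obtain ⟨v0, hv0, hA, hB, hY, hX⟩ := rel.exists_fixed (σ := σ1) h2 h3 hV hne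
  have hL1 : ∀ l ∈ L0, σ1 l v0 = v0 := fun l hl =>
    L0_le (T := stab σ1 v0) hA hB hY hX hl
  have hL2 : ∀ l ∈ L0, σ2 l v0 = v0 := by
    intro l hl
    obtain ⟨l', hl', h⟩ := tw_L0 hl
    rw [e2, h]
    exact hL1 l' hl'
  refine ⟨v0, hv0, ?_⟩
  by_contra hcon
  rw [not_or] at hcon
  obtain ⟨c1, c2⟩ := hcon
  push Not at c1 c2
  have S1 := sys h2 h3 hV hL1 c1
  -- traces
  have tS' : LinearMap.trace K V (σ (inc S)) = ((0 : ℕ) : K) - 1 :=
    trace_eq (σ := σ1) h2 h3 hV hL1 c1 S iS (by decide +kernel)
  have tA' : LinearMap.trace K V (σ (inc A)) = ((4 : ℕ) : K) - 1 :=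
    trace_eq (σ := σ1) h2 h3 hV hL1 c1 A iA (by decide +kernel)
  have tS2 : LinearMap.trace K V (σ (tw (inc (S * S)))) = ((0 : ℕ) : K) - 1 :=
    trace_eq (σ := σ2) h2 h3 hV hL2 c2 (S * S) (m11 iS iS) (by decide +kernel)
  rw [← trace_conj r_K6] at tS2
  have t1 := tS'
  rw [← trace_conj r_K3] at t1
  have t2 := tA'
  rw [← trace_conj r_K5] at t2
  have t3 := tS'
  rw [← trace_conj r_K4] at t3
  -- the element `S` of order `8`
  obtain ⟨w0, w1, w2⟩ := fix_S h2 S1 hL1
  set w := ∑ p ∈ o8, ob σ1 v0 p with hw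
  set s : Module.End K V := σ (inc S) with hsdef
  set j : Module.End K V := σ J with hjdef
  have w1' : s w = w := w1
  have s8 : s * s * (s * s) * (s * s * (s * s)) = 1 := by
    have := congrArg (fun g => σ (inc g)) rel.hzz
    simpa only [map_mul, map_one] using this
  let N : Module.End K V := (1 + s) * (1 + s * s) * (1 + s * s * (s * s))
  have hsN : s * N = N := by
    have h4 : s * N - N = s * s * (s * s) * (s * s * (s * s)) - 1 := by
      simp only [N]
      noncomm_ring
    rw [s8, sub_self] at h4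
    exact sub_eq_zero.1 h4
  have hNw : N w = (8 : K) • w := by
    have f1 : (1 + s * s * (s * s)) w = (2 : K) • w := by
      change w + s (s (s (s w))) = _
      rw [w1', w1', w1', w1', two_smul]
    have f2 : (1 + s * s) w = (2 : K) • w := by
      change w + s (s w) = _
      rw [w1', w1', two_smul]
    have f3 : (1 + s) w = (2 : K) • w := by
      change w + s w = _
      rw [w1', two_smul]
    change (1 + s) ((1 + s * s) ((1 + s * s * (s * s)) w)) = _
    rw [f1, map_smul, f2, map_smul, map_smul, f3, smul_smul, smul_smul]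
    norm_num
  have hrk : ∀ v, ∃ c : K, (j * N) v = c • w := by
    intro v
    obtain ⟨c, hc⟩ := w2 (N v) (by
      have := congrArg (fun f : Module.End K V => f v) hsN
      exact this)
    have hsj : s * j = j * (s * s * (s * s) * s) := by
      have := congrArg σ r_SJ
      simpa only [map_mul] using this
    obtain ⟨c', hc'⟩ := w2 (j w) (by
      have := congrArg (fun f : Module.End K V => f w) hsj
      have this : s (j w) = j (s (s (s (s (s w))))) := this
      rw [w1', w1', w1', w1', w1'] at this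
      exact this)
    refine ⟨c * c', ?_⟩
    change j (N v) = _
    rw [hc, map_smul, hc', smul_smul]
  have htr : LinearMap.trace K V (j * N) = 0 := by
    have u0 : LinearMap.trace K V (σ (J * (inc S * inc S * (inc S * inc S)))) = LinearMap.trace K V (σ J) :=
      trace_conj (k := inc S) r_conj
    have u1 : LinearMap.trace K V (σ (J * (inc S * inc S * (inc S * inc S)) * inc S)) =
        LinearMap.trace K V (σ (J * inc S)) :=
      trace_conj (k := inc S) (by rw [← mul_assoc, r_conj])
    have u2 : LinearMap.trace K V (σ (J * (inc S * inc S * (inc S * inc S)) * (inc S * inc S))) =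
        LinearMap.trace K V (σ (J * (inc S * inc S))) :=
      trace_conj (k := inc S) (by rw [← mul_assoc, r_conj]; group)
    have u3 : LinearMap.trace K V (σ (J * (inc S * inc S * (inc S * inc S)) * (inc S * inc S * inc S))) =
        LinearMap.trace K V (σ (J * (inc S * inc S * inc S))) :=
      trace_conj (k := inc S) (by rw [← mul_assoc, r_conj]; group)
    rw [tS2] at u0
    rw [t1] at u1
    rw [t2] at u2
    rw [t3] at u3
    have hN : j * N = σ J + σ (J * inc S) + σ (J * (inc S * inc S)) + σ (J * (inc S * inc S * inc S)) +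
        (σ (J * (inc S * inc S * (inc S * inc S))) + σ (J * (inc S * inc S * (inc S * inc S)) * inc S) +
          σ (J * (inc S * inc S * (inc S * inc S)) * (inc S * inc S)) +
          σ (J * (inc S * inc S * (inc S * inc S)) * (inc S * inc S * inc S))) := by
      simp only [map_mul, N]
      noncomm_ring
    rw [hN]
    simp only [map_add]
    rw [u0, u1, u2, u3, tS2, t1, t2, t3]
    push_cast
    ring
  have h10 := trace_smul hrk
  rw [htr, zero_smul, Module.End.mul_apply, hNw, map_smul] at h10
  have h11 := (smul_eq_zero.1 h10.symm).resolve_left (by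
    intro h8
    have : (2 : K) * (2 * 2) = 0 := by linear_combination h8
    exact h2 (by simpa using this))
  exact w0 (injective (σ := σ) J (h11.trans (map_zero _).symm))

end main

end Cfsg.Agent.H882.M12V
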